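import Mathlib
import Cfsg.Prelude.Def_CaseTheorems
import Cfsg.Agent.Lib.Helper52.CyclicAux
import Cfsg.Agent.Lib.Helper22.PComp

/-!
# The involution of a cyclic characteristic subgroup of a Sylow `2`-subgroup

If the intersection of any two distinct Sylow `2`-subgroups is contained in the centre of a Sylow
`2`-subgroup, then the involution `c` of a cyclic characteristic subgroup of a Sylow `2`-subgroup
`S` is the only conjugate of `c` in `S` (so the `Z*`-theorem applies).
-/

set_option autoImplicit false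

namespace Cfsg.Agent.Lib.Helper3

open Subgroup

universe u

section

variable {G : Type u} [Group G] [Finite G]

omit [Finite G] in
/-- Membership in a conjugate Sylow subgroup. -/
theorem mem_smul_sylow_iff' {p : ℕ} (g : G) (P : Sylow p G) (x : G) :
    x ∈ ((g • P : Sylow p G) : Subgroup G) ↔ g⁻¹ * x * g ∈ (P : Subgroup G) := by
  rw [Sylow.coe_subgroup_smul, Subgroup.mem_pointwise_smul_iff_inv_smul_mem]
  simp only [MulAut.smul_def, MulAut.conj_inv_apply]

/-- Two Sylow subgroups contained in a subgroup `H` are conjugate by an element of `H`. -/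
theorem exists_smul_eq_of_le {p : ℕ} [Fact p.Prime] (H : Subgroup G) (A B : Sylow p G)
    (hA : (A : Subgroup G) ≤ H) (hB : (B : Subgroup G) ≤ H) :
    ∃ k : G, k ∈ H ∧ k • A = B := by
  obtain ⟨k, hk⟩ := MulAction.exists_smul_eq H (A.subtype hA) (B.subtype hB)
  rw [Sylow.smul_subtype] at hk
  exact ⟨(k : G), k.2, Sylow.subtype_injective hk⟩

/-- An element normalizing `S` fixes the involution of a cyclic characteristic subgroup. -/
theorem conj_eq_of_smul_eq (S : Sylow 2 G) (C : Subgroup ↥(S : Subgroup G))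
    (hCc : IsCyclic ↥C) (hCh : C.Characteristic) (c : ↥(S : Subgroup G)) (hc : c ∈ C)
    (hc2 : orderOf c = 2) (n : G) (hn : n • S = S) : n * (c : G) * n⁻¹ = (c : G) := by
  have h1 : ∀ s : G, s ∈ (S : Subgroup G) → n * s * n⁻¹ ∈ (S : Subgroup G) := by
    intro s hs
    have h2 : n * s * n⁻¹ ∈ ((n • S : Sylow 2 G) : Subgroup G) := by
      rw [mem_smul_sylow_iff']
      have : n⁻¹ * (n * s * n⁻¹) * n = s := by group
      rw [this]
      exact hs
    rwa [hn] at h2
  have h1' : ∀ s : G, s ∈ (S : Subgroup G) → n⁻¹ * s * n ∈ (S : Subgroup G) := by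
    intro s hs
    have h2 : s ∈ ((n • S : Sylow 2 G) : Subgroup G) := by rw [hn]; exact hs
    rwa [mem_smul_sylow_iff'] at h2
  let φ : ↥(S : Subgroup G) ≃* ↥(S : Subgroup G) :=
    { toFun := fun s => ⟨n * (s : G) * n⁻¹, h1 s s.2⟩
      invFun := fun s => ⟨n⁻¹ * (s : G) * n, h1' s s.2⟩
      left_inv := fun s => by
        apply Subtype.ext
        show n⁻¹ * (n * (s : G) * n⁻¹) * n = s
        group
      right_inv := fun s => by
        apply Subtype.ext
        show n * (n⁻¹ * (s : G) * n) * n⁻¹ = s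
        group
      map_mul' := fun s t => by
        apply Subtype.ext
        show n * ((s : G) * (t : G)) * n⁻¹ = n * (s : G) * n⁻¹ * (n * (t : G) * n⁻¹)
        group }
  have h3 : φ c ∈ C := by
    have h4 : c ∈ C.comap φ.toMonoidHom := by rw [hCh.fixed φ]; exact hc
    exact h4
  have h5 : orderOf (φ c) = 2 := by rw [MulEquiv.orderOf_eq, hc2]
  -- unique involution of the cyclic group `C`
  have h6 : (⟨φ c, h3⟩ : C) = ⟨c, hc⟩ := by
    have ho1 : orderOf (⟨φ c, h3⟩ : C) = 2 := by rw [Subgroup.orderOf_mk, h5]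
    have ho2 : orderOf (⟨c, hc⟩ : C) = 2 := by rw [Subgroup.orderOf_mk, hc2]
    have hfin : Finite C := inferInstance
    have heq : zpowers (⟨φ c, h3⟩ : C) = zpowers (⟨c, hc⟩ : C) := by
      apply le_antisymm
      · exact Cfsg.Agent.Lib.Helper52.le_of_card_dvd_of_isCyclic _ _
          (by rw [Nat.card_zpowers, Nat.card_zpowers, ho1, ho2])
      · exact Cfsg.Agent.Lib.Helper52.le_of_card_dvd_of_isCyclic _ _
          (by rw [Nat.card_zpowers, Nat.card_zpowers, ho1, ho2])
    have hmem : (⟨φ c, h3⟩ : C) ∈ zpowers (⟨c, hc⟩ : C) := by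
      rw [← heq]
      exact mem_zpowers _
    obtain ⟨i, hi⟩ := mem_zpowers_iff.1 hmem
    have hc1 : (⟨c, hc⟩ : C) ^ (2 : ℤ) = 1 := by
      have := pow_orderOf_eq_one (⟨c, hc⟩ : C)
      rw [ho2] at this
      exact_mod_cast this
    rcases Int.even_or_odd' i with ⟨j, rfl | rfl⟩
    · rw [zpow_mul, hc1, one_zpow] at hi
      rw [← hi, orderOf_one] at ho1
      omega
    · rw [zpow_add, zpow_mul, hc1, one_zpow, one_mul, zpow_one] at hi
      exact hi.symm
  have h7 : φ c = c := congrArg Subtype.val h6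
  exact congrArg Subtype.val h7

/-- The distinguished involution of a conjugate Sylow subgroup is well defined. -/
theorem conj_eq_conj_of_smul_eq (S : Sylow 2 G) (C : Subgroup ↥(S : Subgroup G))
    (hCc : IsCyclic ↥C) (hCh : C.Characteristic) (c : ↥(S : Subgroup G)) (hc : c ∈ C)
    (hc2 : orderOf c = 2) (h k : G) (hk : h • S = k • S) :
    h * (c : G) * h⁻¹ = k * (c : G) * k⁻¹ := by
  have h1 : (k⁻¹ * h) • S = S := by
    rw [mul_smul, hk, inv_smul_smul]
  have h2 := conj_eq_of_smul_eq S C hCc hCh c hc hc2 (k⁻¹ * h) h1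
  calc h * (c : G) * h⁻¹ = k * ((k⁻¹ * h) * (c : G) * (k⁻¹ * h)⁻¹) * k⁻¹ := by group
    _ = k * (c : G) * k⁻¹ := by rw [h2]

/-- **Isolation.** Under the hypothesis on Sylow intersections, the involution of a cyclic
characteristic subgroup of `S` is the only one of its conjugates lying in `S`. -/
theorem cyclic_char_isolated
    (hCI : ∀ S T : Sylow 2 G, S ≠ T → ∃ U : Sylow 2 G,
      (S : Subgroup G) ⊓ (T : Subgroup G) ≤
        (Subgroup.center ↥(U : Subgroup G)).map (U : Subgroup G).subtype)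
    (S : Sylow 2 G) (C : Subgroup ↥(S : Subgroup G)) (hCc : IsCyclic ↥C)
    (hCh : C.Characteristic) (c : ↥(S : Subgroup G)) (hc : c ∈ C) (hc2 : orderOf c = 2) :
    ∀ g : G, g * (c : G) * g⁻¹ ∈ (S : Subgroup G) → g * (c : G) * g⁻¹ = (c : G) := by
  have : Fact (Nat.Prime 2) := ⟨Nat.prime_two⟩
  intro g hxS
  by_contra hne
  set x : G := g * (c : G) * g⁻¹ with hx
  have hco : orderOf (c : G) = 2 := by rw [Subgroup.orderOf_coe, hc2]
  -- `h • S` centralizes `h c h⁻¹`
  have hcent : ∀ h : G, ((h • S : Sylow 2 G) : Subgroup G) ≤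
      Subgroup.centralizer ({h * (c : G) * h⁻¹} : Set G) := by
    intro h y hy
    rw [mem_smul_sylow_iff'] at hy
    rw [Subgroup.mem_centralizer_singleton_iff]
    have h1 : (h⁻¹ * y * h) • S = S :=
      Sylow.smul_eq_iff_mem_normalizer.2 (Subgroup.le_normalizer hy)
    have h2 := conj_eq_of_smul_eq S C hCc hCh c hc hc2 _ h1
    calc y * (h * (c : G) * h⁻¹)
        = h * ((h⁻¹ * y * h) * (c : G) * (h⁻¹ * y * h)⁻¹) * h⁻¹ * y := by group
      _ = h * (c : G) * h⁻¹ * y := by rw [h2]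
  have hcentS : (S : Subgroup G) ≤ Subgroup.centralizer ({(c : G)} : Set G) := by
    have := hcent 1
    simpa using this
  -- `c` commutes with `x`
  have hcx : (c : G) ∈ Subgroup.centralizer ({x} : Set G) := by
    rw [Subgroup.mem_centralizer_singleton_iff]
    have := hcentS hxS
    rw [Subgroup.mem_centralizer_singleton_iff] at this
    exact this.symm
  -- a Sylow subgroup `h • S` containing `c` with `h c h⁻¹ = x`
  obtain ⟨k, hk⟩ := Cfsg.Agent.Lib.Helper52.exists_conj_mem_sylow_of_orderOf_pow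
    ((g • S : Sylow 2 G).subtype (hcent g))
    (⟨(c : G), hcx⟩ : Subgroup.centralizer ({x} : Set G)) 1
    (by rw [Subgroup.orderOf_mk, hco, pow_one])
  have hk' : (k : G) * (c : G) * (k : G)⁻¹ ∈ ((g • S : Sylow 2 G) : Subgroup G) := by
    have h1 : k * ⟨(c : G), hcx⟩ * k⁻¹ ∈
        (((g • S : Sylow 2 G).subtype (hcent g) :
          Sylow 2 (Subgroup.centralizer ({x} : Set G))) :
          Subgroup (Subgroup.centralizer ({x} : Set G))) := hk
    rw [Sylow.coe_subtype, Subgroup.mem_subgroupOf] at h1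
    exact h1
  have hkx : (k : G) * x = x * (k : G) := Subgroup.mem_centralizer_singleton_iff.1 k.2
  set h : G := (k : G)⁻¹ * g with hh
  have hhc : h * (c : G) * h⁻¹ = x := by
    have h1 : h * (c : G) * h⁻¹ = (k : G)⁻¹ * x * (k : G) := by
      rw [hh, hx]
      group
    rw [h1, mul_assoc, ← hkx, inv_mul_cancel_left]
  have hcT : (c : G) ∈ ((h • S : Sylow 2 G) : Subgroup G) := by
    rw [mem_smul_sylow_iff']
    rw [mem_smul_sylow_iff'] at hk'
    have h1 : h⁻¹ * (c : G) * h = g⁻¹ * ((k : G) * (c : G) * (k : G)⁻¹) * g := by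
      rw [hh]
      group
    rw [h1]
    exact hk'
  have hxT : x ∈ ((h • S : Sylow 2 G) : Subgroup G) := by
    rw [mem_smul_sylow_iff', ← hhc]
    have h1 : h⁻¹ * (h * (c : G) * h⁻¹) * h = (c : G) := by group
    rw [h1]
    exact c.2
  have hST : S ≠ h • S := by
    intro hS
    have h1 := conj_eq_of_smul_eq S C hCc hCh c hc hc2 h hS.symm
    rw [hhc] at h1
    exact hne h1
  obtain ⟨U, hU⟩ := hCI S (h • S) hST
  have hcU := hU (Subgroup.mem_inf.2 ⟨c.2, hcT⟩)
  have hxU := hU (Subgroup.mem_inf.2 ⟨hxS, hxT⟩)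
  -- `U` centralizes `c` and `x`
  have hUc : (U : Subgroup G) ≤ Subgroup.centralizer ({(c : G)} : Set G) := by
    intro y hy
    obtain ⟨u, hu, hu'⟩ := Subgroup.mem_map.1 hcU
    rw [Subgroup.mem_centralizer_singleton_iff, ← hu']
    have h1 := Subgroup.mem_center_iff.1 hu ⟨y, hy⟩
    exact (congrArg Subtype.val h1)
  have hUx : (U : Subgroup G) ≤ Subgroup.centralizer ({x} : Set G) := by
    intro y hy
    obtain ⟨u, hu, hu'⟩ := Subgroup.mem_map.1 hxU
    rw [Subgroup.mem_centralizer_singleton_iff, ← hu']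
    have h1 := Subgroup.mem_center_iff.1 hu ⟨y, hy⟩
    exact (congrArg Subtype.val h1)
  obtain ⟨k₁, hk₁, hk₁U⟩ := exists_smul_eq_of_le _ S U hcentS hUc
  have hTx : ((h • S : Sylow 2 G) : Subgroup G) ≤ Subgroup.centralizer ({x} : Set G) := by
    have := hcent h
    rwa [hhc] at this
  obtain ⟨k₂, hk₂, hk₂U⟩ := exists_smul_eq_of_le _ (h • S) U hTx hUx
  have h1 : k₁ • S = (k₂ * h) • S := by rw [hk₁U, mul_smul, hk₂U]
  have h2 := conj_eq_conj_of_smul_eq S C hCc hCh c hc hc2 k₁ (k₂ * h) h1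
  have h3 : k₁ * (c : G) * k₁⁻¹ = (c : G) := by
    have := Subgroup.mem_centralizer_singleton_iff.1 hk₁
    rw [this, mul_inv_cancel_right]
  have h4 : (k₂ * h) * (c : G) * (k₂ * h)⁻¹ = x := by
    have h5 : (k₂ * h) * (c : G) * (k₂ * h)⁻¹ = k₂ * (h * (c : G) * h⁻¹) * k₂⁻¹ := by group
    rw [h5, hhc]
    have := Subgroup.mem_centralizer_singleton_iff.1 hk₂
    rw [this, mul_inv_cancel_right]
  rw [h3, h4] at h2
  exact hne h2.symm

/-- The statement of `S3184`, given the conclusion of the `Z*`-theorem for `c`. -/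
theorem cyclic_char_central_mod_core
    (hCI : ∀ S T : Sylow 2 G, S ≠ T → ∃ U : Sylow 2 G,
      (S : Subgroup G) ⊓ (T : Subgroup G) ≤
        (Subgroup.center ↥(U : Subgroup G)).map (U : Subgroup G).subtype)
    (S : Sylow 2 G) (C : Subgroup ↥(S : Subgroup G)) (hCc : IsCyclic ↥C)
    (hCh : C.Characteristic) (c : ↥(S : Subgroup G)) (hc : c ∈ C) (hc2 : orderOf c = 2)
    (hZ : (∀ g : G, g * (c : G) * g⁻¹ ∈ (S : Subgroup G) → g * (c : G) * g⁻¹ = (c : G)) →
      ∃ N : Subgroup G, N.Normal ∧ Odd (Nat.card N) ∧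
        ∀ g : G, ((c : G) * g * (c : G)⁻¹ * g⁻¹) ∈ N) :
    ∀ g : G, (QuotientGroup.mk (s := Cfsg.oddCore G) (g * (c : G) * g⁻¹)) =
      QuotientGroup.mk (s := Cfsg.oddCore G) (c : G) := by
  obtain ⟨N, hN, hodd, hcomm⟩ := hZ (cyclic_char_isolated hCI S C hCc hCh c hc hc2)
  have hle : N ≤ Cfsg.oddCore G :=
    Cfsg.Agent.Lib.Helper22.le_pPrimeCore_of_normal 2 hN (Nat.coprime_two_right.2 hodd)
  intro g
  rw [QuotientGroup.eq]
  have hco : orderOf (c : G) = 2 := by rw [Subgroup.orderOf_coe, hc2]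
  have hcc : (c : G) * (c : G) = 1 := by
    have := pow_orderOf_eq_one (c : G)
    rwa [hco, pow_two] at this
  have hci : (c : G)⁻¹ = (c : G) := inv_eq_of_mul_eq_one_left hcc
  have h1 := hle (hcomm g)
  have h2 : (g * (c : G) * g⁻¹)⁻¹ * (c : G) = ((c : G) * g * (c : G)⁻¹ * g⁻¹)⁻¹ := by
    rw [hci]
    have : (g * (c : G) * g⁻¹)⁻¹ = g * (c : G)⁻¹ * g⁻¹ := by group
    rw [this, hci]
    have h3 : ((c : G) * g * (c : G) * g⁻¹)⁻¹ = g * (c : G)⁻¹ * g⁻¹ * (c : G)⁻¹ := by group
    rw [h3, hci]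
  rw [h2]
  exact inv_mem h1

end

end Cfsg.Agent.Lib.Helper3
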